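import Cfsg.Agent.H316.HT.Defs
import Cfsg.Agent.Blocks.Induced
import Cfsg.Agent.OddOrderCharacters.Clifford
import Cfsg.Agent.CharactersDeep.Tifn
import Cfsg.Agent.CharactersDeep.NormalInd
import Cfsg.Agent.CharactersDeep.IndFun
import Cfsg.Agent.H477.HC.Main
import Cfsg.Agent.H687.Good
import Cfsg.Agent.Characters.Linear

/-!
# S4933, box f.red.P4 (helper377): induction from the normalizer of a factor

`S ≤ G` commutes with its conjugates under `G ∖ N_G(S)`, `χ` irreducible of `X = N_G(S)` with `C_X(S)` in the kernel and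
`S` not in the kernel.
* `ind_irr`: the induced character is irreducible (of degree `|G : X| χ(1)`);
* `ind_mem`: it is in the principal block of `G` if `χ` is in the principal block of `X`, `X` contains a Sylow
  `p`-subgroup `P` of `G` and `P ∩ S` is not central in `S`;
* `good_of_factor`: the two together, `S` simple nonabelian.
-/

set_option autoImplicit false

open Subgroup

namespace Cfsg.Agent.H377.HT

open Cfsg Cfsg.Agent.H316.HT Cfsg.Agent.Blocks.Induced
open scoped ComplexConjugate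

universe u

variable {G : Type u} [Group G]

theorem isChar {G : Type u} [Group G] {χ : G → ℂ} (h : IsIrrCharacter G χ) : IsCharacter G χ := by
  obtain ⟨n, ρ, -, h⟩ := h
  exact ⟨n, ρ, h⟩

theorem ext_coe (H : Subgroup G) (θ : H → ℂ) (h : H) : extendByZero H θ (h : G) = θ h :=
  Function.Injective.extend_apply Subtype.val_injective _ _ _

theorem ext_not (H : Subgroup G) (θ : H → ℂ) {x : G} (hx : x ∉ H) : extendByZero H θ x = 0 := by
  unfold extendByZero
  rw [Function.extend_apply']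
  · rfl
  · rintro ⟨a, rfl⟩
    exact hx a.2

/-- the situation: `X` contains the centralizer of `S`, and `S` commutes with its conjugates outside `X` -/
structure Fac (S X : Subgroup G) : Prop where
  le : S ≤ X
  normal : (S.subgroupOf X).Normal
  cent : ∀ g : G, (∀ y ∈ S, g * y = y * g) → g ∈ X
  comm : ∀ g : G, g ∉ X → ∀ x ∈ S, ∀ y ∈ S, x * (g * y * g⁻¹) = (g * y * g⁻¹) * x

/-- the normalizer -/
theorem Fac.of_normalizer (S : Subgroup G)
    (hcomm : ∀ g : G, g ∉ normalizer (S : Set G) → ∀ x ∈ S, ∀ y ∈ S, x * (g * y * g⁻¹) = (g * y * g⁻¹) * x) :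
    Fac S (normalizer (S : Set G)) where
  le := le_normalizer
  normal := normal_in_normalizer
  cent g hg := by
    rw [mem_normalizer_iff]
    intro x
    have hc : ∀ x ∈ S, g * x * g⁻¹ = x := by
      intro x hx
      rw [hg x hx]
      group
    constructor
    · intro hx
      show g * x * g⁻¹ ∈ S
      rw [hc x hx]
      exact hx
    · intro hx
      have hx' : g * x * g⁻¹ ∈ S := hx
      have h1 := hc _ hx'
      have h2 : g * x * g⁻¹ = x := mul_left_cancel (a := g) (by
        have h3 : g * (g * x * g⁻¹) = (g * (g * x * g⁻¹) * g⁻¹) * g := by group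
        rw [h3, h1]
        group)
      rw [h2] at hx'
      exact hx'
  comm := hcomm

/-- **(a)** the induced character is irreducible -/
theorem ind_irr [Fintype G] {S X : Subgroup G} (h : Fac S X) (χ : IrrCharacter X)
    (hker : ∀ x : X, (∀ y ∈ S, (x : G) * y = y * x) → (χ : X → ℂ) x = (χ : X → ℂ) 1)
    (hne : ∃ x : X, (x : G) ∈ S ∧ (χ : X → ℂ) x ≠ (χ : X → ℂ) 1) :
    IsIrrCharacter G (indFun X (χ : X → ℂ)) := by
  classical
  have hfX : Fintype X := Fintype.ofFinite _
  have hn : (S.subgroupOf X).Normal := h.normal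
  have hfS : Fintype (S.subgroupOf X) := Fintype.ofFinite _
  have hsum : ∀ t : X, ∑ s : S.subgroupOf X, (χ : X → ℂ) (t * s) = 0 := by
    intro t
    refine CharactersDeep.Tifn.sum_mul_eq_zero (S.subgroupOf X) χ.2 ?_ t
    obtain ⟨x, hx, hx1⟩ := hne
    exact ⟨x, mem_subgroupOf.2 hx, hx1⟩
  refine Characters.Core.isIrr_of_classInner_self (CharactersDeep.IndFun.isCharacter_indFun X (isChar χ.2)) ?_
  rw [OddOrderCharacters.Clifford.classInner_indFun_eq X _ _ (isClassFunction_of_isIrrCharacter χ.2),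
    Characters.Core.classInner_irr_self χ.2]
  intro x hx
  rw [OddOrderCharacters.Clifford.twist_def]
  have hx' : x⁻¹ ∉ X := fun h => hx (by simpa using X.inv_mem h)
  -- translation by an element of `S`
  have htr : ∀ (t : X) (s : S.subgroupOf X),
      extendByZero X (χ : X → ℂ) (x⁻¹ * ((t * s : X) : G) * x) = extendByZero X (χ : X → ℂ) (x⁻¹ * t * x) := by
    intro t s
    have hs : ((s : X) : G) ∈ S := mem_subgroupOf.1 s.2
    have hc : ∀ y ∈ S, (x⁻¹ * ((s : X) : G) * x) * y = y * (x⁻¹ * ((s : X) : G) * x) := by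
      intro y hy
      have h1 := h.comm x⁻¹ hx' y hy _ hs
      rw [inv_inv] at h1
      exact h1.symm
    have hk : x⁻¹ * ((s : X) : G) * x ∈ X := h.cent _ hc
    have he : x⁻¹ * ((t * s : X) : G) * x = (x⁻¹ * t * x) * (x⁻¹ * ((s : X) : G) * x) := by
      rw [Subgroup.coe_mul]
      group
    rw [he]
    by_cases ht : x⁻¹ * (t : G) * x ∈ X
    · have h2 := ext_coe X (χ : X → ℂ) (⟨_, ht⟩ * ⟨_, hk⟩)
      have h3 := ext_coe X (χ : X → ℂ) ⟨_, ht⟩
      have h4 := H477.HC.kernel_mul (isChar χ.2) (hker ⟨_, hk⟩ hc) ⟨_, ht⟩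
      exact h2.trans (h4.trans h3.symm)
    · rw [ext_not X _ ht, ext_not X]
      intro h
      exact ht (by
        have := X.mul_mem h (X.inv_mem hk)
        rwa [mul_inv_cancel_right] at this)
  have h1 : ∀ s : S.subgroupOf X, ∑ t : X, (χ : X → ℂ) t * conj (extendByZero X (χ : X → ℂ) (x⁻¹ * t * x)) =
      ∑ t : X, (χ : X → ℂ) (t * s) * conj (extendByZero X (χ : X → ℂ) (x⁻¹ * t * x)) := by
    intro s
    rw [← Equiv.sum_comp (Equiv.mulRight (s : X))]
    refine Finset.sum_congr rfl fun t _ => ?_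
    rw [Equiv.coe_mulRight, htr]
  have h2 : ∑ s : S.subgroupOf X, ∑ t : X, (χ : X → ℂ) (t * s) * conj (extendByZero X (χ : X → ℂ) (x⁻¹ * t * x)) = 0 := by
    rw [Finset.sum_comm]
    refine Finset.sum_eq_zero fun t _ => ?_
    rw [← Finset.sum_mul, hsum, zero_mul]
  rw [← Finset.sum_congr rfl fun s _ => h1 s, Finset.sum_const, Finset.card_univ, nsmul_eq_mul, mul_eq_zero] at h2
  exact h2.resolve_left (by exact_mod_cast Fintype.card_ne_zero)

/-- natural multiples of `p` are in the local ideal -/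
theorem natMem {p : ℕ} {M : Ideal AlgInt} (hM : IsPModular p M) {n : ℕ} (h : p ∣ n) : MemLocalIdeal M (n : ℂ) := by
  obtain ⟨k, rfl⟩ := h
  refine ⟨((p * k : ℕ) : AlgInt), 1, ?_, ?_, ?_⟩
  · rw [Nat.cast_mul]
    exact M.mul_mem_right _ hM.2.2
  · intro h1
    exact hM.2.1.ne_top ((Ideal.eq_top_iff_one M).2 h1)
  · simp

/-- the elements of a class outside `X`, if none of them centralizes `P`: their number is divisible by `p` -/
theorem dvd_outside [Finite G] {p : ℕ} [hp : Fact p.Prime] (P X : Subgroup G) (hP : IsPGroup p P) (hPX : P ≤ X)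
    (hc : ∀ z : G, z ∉ X → ∃ x ∈ P, z * x ≠ x * z) (g : G) :
    p ∣ Nat.card {y : G // IsConj g y ∧ y ∉ X} := by
  classical
  have := Fintype.ofFinite G
  let act : MulAction P {y : G // IsConj g y ∧ y ∉ X} :=
    { smul := fun a y => ⟨(a : G) * (y : G) * (a : G)⁻¹, y.2.1.trans (isConj_iff.2 ⟨a, rfl⟩), fun h => y.2.2 (by
        have h1 := X.mul_mem (X.mul_mem (X.inv_mem (hPX a.2)) h) (hPX a.2)
        have h2 : (a : G)⁻¹ * ((a : G) * (y : G) * (a : G)⁻¹) * (a : G) = y := by group
        rwa [h2] at h1)⟩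
      one_smul := fun y => Subtype.ext (by
        show ((1 : P) : G) * (y : G) * ((1 : P) : G)⁻¹ = y
        simp)
      mul_smul := fun a b y => Subtype.ext (by
        show ((a * b : P) : G) * (y : G) * ((a * b : P) : G)⁻¹ = (a : G) * ((b : G) * (y : G) * (b : G)⁻¹) * (a : G)⁻¹
        rw [Subgroup.coe_mul]
        group) }
  have h1 := @IsPGroup.card_modEq_card_fixedPoints p P _ hP hp {y : G // IsConj g y ∧ y ∉ X} act _
  have h2 : IsEmpty (@MulAction.fixedPoints P {y : G // IsConj g y ∧ y ∉ X} _ act) := by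
    refine ⟨fun ⟨y, hy⟩ => ?_⟩
    obtain ⟨x, hx, hne⟩ := hc y y.2.2
    apply hne
    have h3 : x * (y : G) * x⁻¹ = y := congrArg Subtype.val (hy ⟨x, hx⟩)
    rw [mul_inv_eq_iff_eq_mul] at h3
    exact h3.symm
  rw [@Nat.card_of_isEmpty _ h2] at h1
  exact (Nat.modEq_zero_iff_dvd).1 h1

/-- **(b)** the block of the induced character -/
theorem ind_sameBlock [Fintype G] {p : ℕ} [hp : Fact p.Prime] {M : Ideal AlgInt} (hM : IsPModular p M)
    (P X : Subgroup G) (hP : IsPGroup p P) (hPX : P ≤ X) (hc : ∀ z : G, z ∉ X → ∃ x ∈ P, z * x ≠ x * z)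
    (χ : IrrCharacter X) (hχ : χ ∈ principalBlock M X) :
    SameBlock M (fun _ : G => (1 : ℂ)) (indFun X (χ : X → ℂ)) := by
  classical
  have hMp : M.IsPrime := hM.2.1.isPrime
  have h1irr : IsIrrCharacter X (fun _ : X => (1 : ℂ)) := by
    refine Characters.Linear.isIrrCharacter_of_isCharacter ?_ rfl
    refine ⟨1, 1, ?_⟩
    funext g
    simp [Representation.character]
  intro g
  rw [centralChar_indFun]
  have e1 : centralChar (fun _ : G => (1 : ℂ)) g = ((Subgroup.centralizer ({g} : Set G)).index : ℂ) := by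
    simp [centralChar]
  have e2 : inducedCentralChar X (fun _ : X => (1 : ℂ)) g = (Nat.card {h : X // IsConj g (h : G)} : ℂ) := by
    unfold inducedCentralChar
    rw [finsum_mem_eq_finite_toFinset_sum _ (Set.toFinite _)]
    simp only [div_one, Finset.sum_const, nsmul_eq_mul, mul_one]
    rw [← Set.ncard_eq_toFinset_card]
    rfl
  have e3 : (Subgroup.centralizer ({g} : Set G)).index =
      Nat.card {h : X // IsConj g (h : G)} + Nat.card {y : G // IsConj g y ∧ y ∉ X} := by
    rw [← ncard_conj_eq_index]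
    have h2 : Nat.card {h : X // IsConj g (h : G)} = Set.ncard ({y : G | IsConj g y} ∩ (X : Set G)) := by
      rw [← Nat.card_coe_set_eq]
      exact Nat.card_congr ⟨fun h => ⟨(h : X), h.2, (h : X).2⟩, fun y => ⟨⟨y, y.2.2⟩, y.2.1⟩, fun h => rfl, fun y => rfl⟩
    have h3 : Nat.card {y : G // IsConj g y ∧ y ∉ X} = Set.ncard ({y : G | IsConj g y} \ (X : Set G)) := by
      rw [← Nat.card_coe_set_eq]
      rfl
    rw [h2, h3]
    exact (Set.ncard_inter_add_ncard_sdiff_eq_ncard _ _ (Set.toFinite _)).symm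
  have h4 := memLocalIdeal_induced_sub hMp X ⟨_, h1irr⟩ χ hχ g
  have h5 := natMem hM (dvd_outside P X hP hPX hc g)
  have h6 := memLocalIdeal_add hMp h4 h5
  refine (congrArg (MemLocalIdeal M) ?_).mp h6
  rw [e1, e3, Nat.cast_add, ← e2]
  ring

/-- the degree of the induced character -/
theorem charDegree_ind [Fintype G] (X : Subgroup G) (χ : IrrCharacter X) :
    charDegree (indFun X (χ : X → ℂ)) = X.index * charDegree (χ : X → ℂ) := by
  apply H687.charDegree_of_eq
  rw [CharactersDeep.NormalInd.indFun_one, H687.charDegree_eq (isChar χ.2), Nat.cast_mul]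

theorem charDegree_ne_zero [Finite G] (χ : IrrCharacter G) : charDegree (χ : G → ℂ) ≠ 0 := by
  intro h
  have h1 : (χ : G → ℂ) 1 = 0 := by rw [H687.charDegree_eq (isChar χ.2), h, Nat.cast_zero]
  exact Characters.Core.isIrr_apply_one_ne_zero χ.2 h1

theorem vd_ind [Fintype G] {p : ℕ} (X : Subgroup G) (χ : IrrCharacter X) :
    vd p (indFun X (χ : X → ℂ)) = vd p (χ : X → ℂ) + X.index.factorization p := by
  rw [vd, charDegree_ind, Nat.factorization_mul (Subgroup.index_ne_zero_of_finite) (charDegree_ne_zero χ),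
    Finsupp.add_apply, add_comm]
  rfl

/-- the general form -/
theorem good_of_factor' [Finite G] {p : ℕ} [hp : Fact p.Prime] {M : Ideal AlgInt} (hM : IsPModular p M)
    (P : Subgroup G) (hP : IsPGroup p P) (S : Subgroup G) (hZ : ∃ x ∈ P ⊓ S, ∃ y ∈ S, x * y ≠ y * x)
    (hcomm : ∀ g : G, g ∉ normalizer (S : Set G) → ∀ x ∈ S, ∀ y ∈ S, x * (g * y * g⁻¹) = (g * y * g⁻¹) * x)
    (hPX : P ≤ normalizer (S : Set G))
    (χ : IrrCharacter ↥(normalizer (S : Set G))) (hχ : χ ∈ principalBlock M ↥(normalizer (S : Set G)))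
    (hker : ∀ x : ↥(normalizer (S : Set G)), (∀ y ∈ S, (x : G) * y = y * x) →
      (χ : ↥(normalizer (S : Set G)) → ℂ) x = (χ : ↥(normalizer (S : Set G)) → ℂ) 1)
    (hne : ∃ x : ↥(normalizer (S : Set G)), (x : G) ∈ S ∧
      (χ : ↥(normalizer (S : Set G)) → ℂ) x ≠ (χ : ↥(normalizer (S : Set G)) → ℂ) 1) :
    ∃ χ' : IrrCharacter G, χ' ∈ principalBlock M G ∧
      vd p (χ' : G → ℂ) = vd p (χ : ↥(normalizer (S : Set G)) → ℂ) + (normalizer (S : Set G)).index.factorization p := by
  have := Fintype.ofFinite G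
  refine ⟨⟨_, ind_irr (Fac.of_normalizer S hcomm) χ hker hne⟩, ?_, vd_ind _ χ⟩
  refine ind_sameBlock hM P _ hP hPX ?_ χ hχ
  intro z hz
  obtain ⟨x, hx, y, hy, hxy⟩ := hZ
  by_contra hcon
  push Not at hcon
  apply hxy
  have h1 := hcon x (mem_inf.1 hx).1
  have h2 : z * x * z⁻¹ = x := by rw [h1]; group
  have h3 := hcomm z hz y hy x (mem_inf.1 hx).2
  rw [h2] at h3
  exact h3.symm

/-- **f.red.P4** -/
theorem good_of_factor [Finite G] {p : ℕ} [hp : Fact p.Prime] {M : Ideal AlgInt} (hM : IsPModular p M)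
    (P : Sylow p G) (S : Subgroup G) (hsimp : IsSimpleGroup S) (hS : ¬ ∀ x ∈ S, ∀ y ∈ S, x * y = y * x)
    (hPS : (P : Subgroup G) ⊓ S ≠ ⊥)
    (hcomm : ∀ g : G, g ∉ normalizer (S : Set G) → ∀ x ∈ S, ∀ y ∈ S, x * (g * y * g⁻¹) = (g * y * g⁻¹) * x)
    (hPX : (P : Subgroup G) ≤ normalizer (S : Set G))
    (χ : IrrCharacter ↥(normalizer (S : Set G))) (hχ : χ ∈ principalBlock M ↥(normalizer (S : Set G)))
    (hker : ∀ x : ↥(normalizer (S : Set G)), (∀ y ∈ S, (x : G) * y = y * x) →
      (χ : ↥(normalizer (S : Set G)) → ℂ) x = (χ : ↥(normalizer (S : Set G)) → ℂ) 1)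
    (hne : ∃ x : ↥(normalizer (S : Set G)), (x : G) ∈ S ∧
      (χ : ↥(normalizer (S : Set G)) → ℂ) x ≠ (χ : ↥(normalizer (S : Set G)) → ℂ) 1) :
    ∃ χ' : IrrCharacter G, χ' ∈ principalBlock M G ∧
      vd p (χ' : G → ℂ) = vd p (χ : ↥(normalizer (S : Set G)) → ℂ) := by
  have hidx : (normalizer (S : Set G)).index.factorization p = 0 :=
    Nat.factorization_eq_zero_of_not_dvd fun h => P.not_dvd_index (h.trans (Subgroup.index_dvd_of_le hPX))
  rw [show vd p (χ : ↥(normalizer (S : Set G)) → ℂ) =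
    vd p (χ : ↥(normalizer (S : Set G)) → ℂ) + (normalizer (S : Set G)).index.factorization p by rw [hidx, add_zero]]
  refine good_of_factor' hM (P : Subgroup G) P.2 S ?_ hcomm hPX χ hχ hker hne
  by_contra hcon
  push Not at hcon
  -- `P ⊓ S` is contained in the centre of `S`, which is trivial
  have hZ : Subgroup.center S = ⊥ := by
    rcases (Subgroup.center S).normal_of_characteristic.eq_bot_or_eq_top with h | h
    · exact h
    · exfalso
      apply hS
      intro x hx y hy
      have h1 : (⟨x, hx⟩ : S) ∈ Subgroup.center S := h ▸ mem_top _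
      exact (congrArg Subtype.val (Subgroup.mem_center_iff.1 h1 ⟨y, hy⟩)).symm
  apply hPS
  rw [eq_bot_iff]
  intro x hx
  have h1 : (⟨x, (mem_inf.1 hx).2⟩ : S) ∈ Subgroup.center S := by
    rw [Subgroup.mem_center_iff]
    intro y
    exact Subtype.ext (hcon x hx y y.2).symm
  rw [hZ, mem_bot] at h1
  exact mem_bot.2 (congrArg Subtype.val h1)

end Cfsg.Agent.H377.HT
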